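import Cfsg.Agent.SL2OrderThree.Layers
import Mathlib.GroupTheory.PGroup
import Mathlib.GroupTheory.Perm.Cycle.Type
import Mathlib.GroupTheory.QuotientGroup.Basic

/-!
A two-group with an action of a group mapping onto `SL₂` of a finite field of characteristic two, inner
on the kernel, in which some element of order three acts without fixed points, has exponent two.
-/

set_option autoImplicit false

open scoped MatrixGroups

namespace CfsgLib.SL2Three

variable {K : Type*} [Field K] [CharP K 2]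

/-- The companion element of trace one. -/
def compT : SL(2, K) := ⟨!![0, 1; 1, 1], by simp [Matrix.det_fin_two, CharTwo.neg_eq]⟩

theorem trace_eq_one_of_pow_three {g : SL(2, K)} (h3 : g ^ 3 = 1) (h1 : g ≠ 1) :
    Matrix.trace (g : Matrix (Fin 2) (Fin 2) K) = 1 := by
  by_contra ht
  apply h1
  rw [Matrix.trace_fin_two] at ht
  have hd : g.1 0 0 * g.1 1 1 - g.1 0 1 * g.1 1 0 = 1 := by
    rw [← Matrix.det_fin_two]; exact g.2
  have h2 : (2 : K) = 0 := CharTwo.two_eq_zero
  have e : ∀ i j, (g.1 * g.1 * g.1) i j = (1 : Matrix (Fin 2) (Fin 2) K) i j := fun i j => by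
    rw [← Matrix.SpecialLinearGroup.coe_mul, ← Matrix.SpecialLinearGroup.coe_mul,
      show g * g * g = 1 by rw [← h3, pow_succ, pow_two], Matrix.SpecialLinearGroup.coe_one]
  have e00 := e 0 0
  have e01 := e 0 1
  have e10 := e 1 0
  have e11 := e 1 1
  simp [Matrix.mul_apply, Fin.sum_univ_two] at e00 e01 e10 e11
  set t := g.1 0 0 + g.1 1 1 with htdef
  have hne : t * t + 1 ≠ 0 := by
    intro h
    apply ht
    have : (t + 1) * (t + 1) = 0 := by linear_combination h + t * h2
    exact CharTwo.add_eq_zero.mp (mul_self_eq_zero.mp this)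
  have h01 : g.1 0 1 = 0 := by
    refine (mul_eq_zero.mp (?_ : (t * t + 1) * g.1 0 1 = 0)).resolve_left hne
    rw [htdef]; linear_combination e01 + g.1 0 1 * hd + g.1 0 1 * h2
  have h10 : g.1 1 0 = 0 := by
    refine (mul_eq_zero.mp (?_ : (t * t + 1) * g.1 1 0 = 0)).resolve_left hne
    rw [htdef]; linear_combination e10 + g.1 1 0 * hd + g.1 1 0 * h2
  simp [h01, h10] at e00 e11 hd
  have ha : g.1 0 0 = g.1 1 1 := by
    have : g.1 0 0 * g.1 0 0 * g.1 0 0 * g.1 1 1 = g.1 1 1 := by rw [e00, one_mul]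
    have e' : g.1 0 0 * g.1 0 0 = g.1 1 1 := by
      linear_combination this - g.1 0 0 * g.1 0 0 * hd
    have e'' : g.1 1 1 * g.1 1 1 = g.1 0 0 := by
      linear_combination g.1 0 0 * e11 - g.1 1 1 * g.1 1 1 * hd
    by_contra hab
    apply ht
    have : (g.1 0 0 - g.1 1 1) * (g.1 0 0 + g.1 1 1 + 1) = 0 := by linear_combination e' - e''
    exact CharTwo.add_eq_zero.mp ((mul_eq_zero.mp this).resolve_left (sub_ne_zero.mpr hab))
  have hone : g.1 0 0 = 1 := by
    have : g.1 0 0 * g.1 0 0 = 1 := by rw [← ha] at hd; exact hd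
    linear_combination e00 - g.1 0 0 * this
  ext i j
  fin_cases i <;> fin_cases j <;> simp [h01, h10, hone, ← ha]

theorem exists_conj_compT [Finite K] {g : SL(2, K)}
    (h : Matrix.trace (g : Matrix (Fin 2) (Fin 2) K) = 1) : ∃ p : SL(2, K), g = p * compT * p⁻¹ := by
  rw [Matrix.trace_fin_two] at h
  have hd : g.1 0 0 * g.1 1 1 - g.1 0 1 * g.1 1 0 = 1 := by
    rw [← Matrix.det_fin_two]; exact g.2
  have h2 : (2 : K) = 0 := CharTwo.two_eq_zero
  have key : ∀ u v : K, u * (g.1 1 0 * u + g.1 1 1 * v) - (g.1 0 0 * u + g.1 0 1 * v) * v ≠ 0 →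
      ∃ p : SL(2, K), g = p * compT * p⁻¹ := by
    intro u v hne
    obtain ⟨s, hs⟩ := exists_mul_self
      (u * (g.1 1 0 * u + g.1 1 1 * v) - (g.1 0 0 * u + g.1 0 1 * v) * v)⁻¹
    obtain ⟨p, hp⟩ : ∃ p : SL(2, K), (p : Matrix (Fin 2) (Fin 2) K) =
        !![s * u, s * (g.1 0 0 * u + g.1 0 1 * v); s * v, s * (g.1 1 0 * u + g.1 1 1 * v)] := by
      refine ⟨⟨_, ?_⟩, rfl⟩
      rw [Matrix.det_fin_two_of]
      have := inv_mul_cancel₀ hne
      rw [← hs] at this
      linear_combination this
    refine ⟨p, eq_mul_inv_of_mul_eq ?_⟩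
    have hC : ((compT : SL(2, K)) : Matrix (Fin 2) (Fin 2) K) = !![0, 1; 1, 1] := rfl
    ext i j
    fin_cases i <;> fin_cases j <;>
      simp [hp, hC, Matrix.SpecialLinearGroup.coe_mul, Matrix.mul_apply, Fin.sum_univ_two]
    · ring
    · linear_combination (-(s * u)) * hd + (s * (g.1 0 0 * u + g.1 0 1 * v)) * h -
        (s * u) * h2
    · ring
    · linear_combination (-(s * v)) * hd + (s * (g.1 1 0 * u + g.1 1 1 * v)) * h -
        (s * v) * h2
  by_cases h10 : g.1 1 0 = 0
  · by_cases h01 : g.1 0 1 = 0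
    · refine key 1 1 ?_
      rw [h01, h10]
      intro hz
      apply one_ne_zero (α := K)
      linear_combination hz - h + g.1 0 0 * h2
    · exact key 0 1 (by simpa using h01)
  · exact key 1 0 (by simpa using h10)

variable [Fintype K] {G : Type*} [Group G] (π : G →* SL(2, K)) {x : G}

/-- Coordinates for an elementary abelian section. -/
theorem exists_coords (hπ : Function.Surjective π)
    (hx : Matrix.trace (π x : Matrix (Fin 2) (Fin 2) K) = 1) {A : Type*} [CommGroup A] [Finite A]
    (ψ : G →* MulAut A) (hsq : ∀ a : A, a * a = 1) (hk : ∀ g, π g = 1 → ∀ a, ψ g a = a)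
    (hf : ∀ a, ψ x a = a → a = 1) :
    ∃ (k : ℕ) (Φ : Additive A ≃+ (Fin k → Fin 2 → K)), ∀ g a i,
      Φ (Additive.ofMul (ψ g a)) i =
        (π g : Matrix (Fin 2) (Fin 2) K).mulVec (Φ (Additive.ofMul a) i) := by
  choose s hs using hπ
  have hwd : ∀ g a, ψ (s (π g)) a = ψ g a := by
    intro g a
    have h1 : π (g⁻¹ * s (π g)) = 1 := by rw [map_mul, map_inv, hs, inv_mul_cancel]
    have := congrArg (ψ g) (hk _ h1 a)
    rwa [← MulAut.mul_apply, ← map_mul, mul_inv_cancel_left] at this
  have hwd' : ∀ q h a, π h = q → ψ (s q) a = ψ h a := by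
    rintro q h a rfl; exact hwd h a
  let ρ : SL(2, K) →* AddMonoid.End (Additive A) :=
    { toFun := fun q => (ψ (s q)).toMonoidHom.toAdditive
      map_one' := by
        refine AddMonoidHom.ext fun a => ?_
        show Additive.ofMul (ψ (s 1) a.toMul) = a
        rw [hwd' 1 1 _ (map_one π), map_one]; rfl
      map_mul' := fun q r => by
        refine AddMonoidHom.ext fun a => ?_
        show Additive.ofMul (ψ (s (q * r)) a.toMul) = Additive.ofMul (ψ (s q) (ψ (s r) a.toMul))
        rw [hwd' (q * r) (s q * s r) _ (by rw [map_mul, hs, hs]), map_mul]; rfl }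
  have hρ : ∀ g a, ρ (π g) (Additive.ofMul a) = Additive.ofMul (ψ g a) := fun g a =>
    congrArg Additive.ofMul (hwd g a)
  obtain ⟨k, Φ, hΦ⟩ := exists_natural_coords (fun v : Additive A => hsq v.toMul) ρ (by
    intro q hq v hv
    obtain ⟨p, hp⟩ := exists_conj_compT hq
    obtain ⟨p', hp'⟩ := exists_conj_compT hx
    set c := s (p * p'⁻¹) with hc
    have hq' : π (c * x * c⁻¹) = q := by
      rw [map_mul, map_mul, map_inv, hc, hs, hp', hp]; group
    have e : ψ (c * x * c⁻¹) v.toMul = v.toMul := by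
      have := hρ (c * x * c⁻¹) v.toMul
      rw [hq'] at this
      exact (congrArg Additive.toMul (hv.symm.trans this)).symm
    rw [map_mul, map_mul, map_inv, MulAut.mul_apply, MulAut.mul_apply] at e
    have e1 : (ψ c)⁻¹ v.toMul = 1 := hf _ ((ψ c).injective (by
      rw [e, MulAut.apply_inv_self]))
    have e2 := congrArg (ψ c) e1
    rw [MulAut.apply_inv_self, map_one] at e2
    exact e2)
  exact ⟨k, Φ, fun g a i => by rw [← hρ, hΦ]⟩

/-- The exponent is two. -/
theorem mul_self_eq_one_aux (hq : ∃ t : K, t ≠ 0 ∧ t ≠ 1) (hπ : Function.Surjective π)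
    (hx : Matrix.trace (π x : Matrix (Fin 2) (Fin 2) K) = 1) :
    ∀ (n : ℕ) {Y : Type*} [Group Y] [Finite Y], Nat.card Y ≤ n → IsPGroup 2 Y →
      ∀ (φ : G →* MulAut Y), (∀ g, π g = 1 → ∃ y₀, ∀ y, φ g y = y₀ * y * y₀⁻¹) →
        (∀ y, φ x y = y → y = 1) → ∀ y : Y, y * y = 1 := by
  intro n
  induction n with
  | zero =>
    intro Y _ _ hn
    have := Nat.card_pos (α := Y)
    omega
  | succ n ih =>
    intro Y _ _ hn hY φ hker hfix
    by_cases hsub : Subsingleton Y
    · exact fun y => Subsingleton.elim _ _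
    haveI : Nontrivial Y := not_subsingleton_iff_nontrivial.mp hsub
    haveI : Fact (Nat.Prime 2) := ⟨Nat.prime_two⟩
    -- the bottom layer
    let Z : Subgroup Y :=
      { carrier := {z | (∀ y, y * z = z * y) ∧ z * z = 1}
        one_mem' := ⟨fun y => by rw [mul_one, one_mul], mul_one 1⟩
        mul_mem' := fun {a b} ha hb => by
          refine ⟨fun y => ?_, ?_⟩
          · rw [← mul_assoc, ha.1, mul_assoc, hb.1, mul_assoc]
          · rw [show a * b * (a * b) = a * (b * a) * b by group, ← hb.1 a,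
              show a * (a * b) * b = (a * a) * (b * b) by group, ha.2, hb.2, mul_one]
        inv_mem' := fun {a} ha => by
          rw [inv_eq_of_mul_eq_one_right ha.2]; exact ha }
    haveI hZn : Z.Normal := ⟨fun z hz g => by rwa [hz.1 g, mul_inv_cancel_right]⟩
    have hZφ : ∀ g, ∀ z ∈ Z, φ g z ∈ Z := by
      intro g z hz
      refine ⟨fun y => ?_, by rw [← map_mul, hz.2, map_one]⟩
      obtain ⟨y', rfl⟩ := (φ g).surjective y
      rw [← map_mul, ← map_mul, hz.1]
    have hZne : ∃ z ∈ Z, z ≠ 1 := by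
      haveI := hY.center_nontrivial
      have h2 : 2 ∣ Nat.card (Subgroup.center Y) := by
        obtain ⟨m, hm⟩ := IsPGroup.iff_card.mp (hY.to_subgroup (Subgroup.center Y))
        rw [hm]
        refine dvd_pow_self 2 fun h0 => ?_
        have := Finite.one_lt_card (α := Subgroup.center Y)
        rw [hm, h0] at this
        simp at this
      obtain ⟨z, hz⟩ := exists_prime_orderOf_dvd_card' 2 h2
      have e : (z : Y) * z = 1 := by
        rw [← Subgroup.coe_mul, ← pow_two, ← hz, pow_orderOf_eq_one, Subgroup.coe_one]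
      refine ⟨z, ⟨fun y => (Subgroup.mem_center_iff.mp z.2 y), e⟩, fun h1 => ?_⟩
      have : z = 1 := Subtype.ext h1
      rw [this, orderOf_one] at hz
      omega
    -- the quotient
    let q : G → (Y ⧸ Z) →* (Y ⧸ Z) := fun g =>
      QuotientGroup.map Z Z (φ g).toMonoidHom (fun z hz => hZφ g z hz)
    have hqm : ∀ g (y : Y), q g (y : Y ⧸ Z) = ((φ g y : Y) : Y ⧸ Z) := fun g y => rfl
    let φq : G →* MulAut (Y ⧸ Z) :=
      { toFun := fun g =>
          { toFun := q g
            invFun := q g⁻¹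
            left_inv := fun y => by
              induction y using QuotientGroup.induction_on with | _ y => ?_
              rw [hqm, hqm, map_inv, MulAut.inv_apply_self]
            right_inv := fun y => by
              induction y using QuotientGroup.induction_on with | _ y => ?_
              rw [hqm, hqm, map_inv, MulAut.apply_inv_self]
            map_mul' := map_mul (q g) }
        map_one' := MulEquiv.ext fun y => by
          induction y using QuotientGroup.induction_on with | _ y => ?_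
          show q 1 (y : Y ⧸ Z) = (y : Y ⧸ Z)
          rw [hqm, map_one]; rfl
        map_mul' := fun g h => MulEquiv.ext fun y => by
          induction y using QuotientGroup.induction_on with | _ y => ?_
          show q (g * h) (y : Y ⧸ Z) = q g (q h (y : Y ⧸ Z))
          rw [hqm, hqm, hqm, map_mul]; rfl }
    have hφq : ∀ g (y : Y), φq g (y : Y ⧸ Z) = ((φ g y : Y) : Y ⧸ Z) := fun g y => rfl
    have hkerq : ∀ g, π g = 1 → ∃ y₀, ∀ y, φq g y = y₀ * y * y₀⁻¹ := by
      intro g hg
      obtain ⟨y₀, hy₀⟩ := hker g hg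
      refine ⟨(y₀ : Y ⧸ Z), fun y => ?_⟩
      induction y using QuotientGroup.induction_on with | _ y => ?_
      rw [hφq, hy₀]; rfl
    have hfixq : ∀ y, φq x y = y → y = 1 := by
      intro y
      induction y using QuotientGroup.induction_on with | _ y => ?_
      intro h
      rw [hφq, eq_comm, QuotientGroup.eq] at h
      have hinj : ∀ a b : Y, a⁻¹ * φ x a = b⁻¹ * φ x b → a = b := by
        intro a b hab
        have : φ x (b * a⁻¹) = b * a⁻¹ := by
          rw [map_mul, map_inv, mul_inv_eq_iff_eq_mul, mul_assoc, hab, mul_inv_cancel_left]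
        exact (mul_inv_eq_one.mp (hfix _ this)).symm
      have hinjZ : Function.Injective
          (fun z : Z => (⟨(z : Y)⁻¹ * φ x z, mul_mem (inv_mem z.2) (hZφ x z z.2)⟩ : Z)) :=
        fun a b hab => Subtype.ext (hinj a b (congrArg Subtype.val hab))
      obtain ⟨w, hw⟩ := (Finite.injective_iff_surjective.mp hinjZ) ⟨_, h⟩
      have : (w : Y) = y := hinj _ _ (congrArg Subtype.val hw)
      exact (QuotientGroup.eq_one_iff y).mpr (this ▸ w.2)
    have hcardq : Nat.card (Y ⧸ Z) ≤ n := by
      obtain ⟨z, hz, hz1⟩ := hZne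
      haveI : Nontrivial Z := ⟨⟨⟨z, hz⟩, 1, fun e => hz1 (congrArg Subtype.val e)⟩⟩
      have h2 : 1 < Nat.card Z := Finite.one_lt_card
      have hq0 : 0 < Nat.card (Y ⧸ Z) := Nat.card_pos
      rw [Subgroup.card_eq_card_quotient_mul_card_subgroup Z] at hn
      have := Nat.mul_le_mul_left (Nat.card (Y ⧸ Z)) (show 2 ≤ Nat.card Z from h2)
      omega
    have hsqq := ih hcardq (hY.to_quotient Z) φq hkerq hfixq
    have hqc : ∀ a b : Y ⧸ Z, a * b = b * a := fun a b => by
      have e : ∀ c : Y ⧸ Z, c⁻¹ = c := fun c => inv_eq_of_mul_eq_one_right (hsqq c)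
      rw [← e (a * b), mul_inv_rev, e, e]
    letI : CommGroup (Y ⧸ Z) := { (inferInstance : Group (Y ⧸ Z)) with mul_comm := hqc }
    letI : CommGroup Z :=
      { (inferInstance : Group Z) with mul_comm := fun a b => Subtype.ext (b.2.1 a) }
    -- coordinates
    let φz : G →* MulAut Z :=
      { toFun := fun g =>
          { toFun := fun z => ⟨φ g z, hZφ g z z.2⟩
            invFun := fun z => ⟨φ g⁻¹ z, hZφ _ z z.2⟩
            left_inv := fun z => Subtype.ext (by simp)
            right_inv := fun z => Subtype.ext (by simp)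
            map_mul' := fun a b => Subtype.ext (map_mul (φ g) _ _) }
        map_one' := MulEquiv.ext fun z => Subtype.ext (by simp)
        map_mul' := fun g h => MulEquiv.ext fun z => Subtype.ext (by simp) }
    have hφz : ∀ g z, ((φz g z : Z) : Y) = φ g z := fun g z => rfl
    obtain ⟨l, ΦZ, hΦZ⟩ := exists_coords π hπ hx φz (fun z => Subtype.ext z.2.2)
      (fun g hg z => by
        obtain ⟨y₀, hy₀⟩ := hker g hg
        refine Subtype.ext ?_
        rw [hφz, hy₀, z.2.1, mul_inv_cancel_right])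
      (fun z hz => Subtype.ext (hfix _ (congrArg Subtype.val hz)))
    obtain ⟨k, Φq, hΦq⟩ := exists_coords π hπ hx φq hsqq
      (fun g hg y => by
        obtain ⟨y₀, hy₀⟩ := hkerq g hg
        rw [hy₀, mul_comm y₀, mul_inv_cancel_right]) hfixq
    -- the commutator pairing
    let P : Y → (Fin k → Fin 2 → K) := fun y => Φq (Additive.ofMul (y : Y ⧸ Z))
    have hPs : ∀ u, ∃ y, P y = u := fun u => by
      obtain ⟨y, hy⟩ := QuotientGroup.mk_surjective (Φq.symm u).toMul
      exact ⟨y, by show Φq (Additive.ofMul (y : Y ⧸ Z)) = u; rw [hy]; exact Φq.apply_symm_apply u⟩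
    have hPm : ∀ a b, P (a * b) = P a + P b := fun a b =>
      map_add Φq (Additive.ofMul (a : Y ⧸ Z)) (Additive.ofMul (b : Y ⧸ Z))
    have hPe : ∀ g y, P (φ g y) = fun i => (π g : Matrix (Fin 2) (Fin 2) K).mulVec (P y i) :=
      fun g y => funext fun i => hΦq g (y : Y ⧸ Z) i
    choose sec hsec using hPs
    have hcz : ∀ a b : Y, a * b * a⁻¹ * b⁻¹ ∈ Z := fun a b =>
      (QuotientGroup.eq_one_iff _).mp (by
        rw [QuotientGroup.mk_mul, QuotientGroup.mk_mul, QuotientGroup.mk_mul,
          mul_comm (a : Y ⧸ Z) (b : Y ⧸ Z), QuotientGroup.mk_inv, QuotientGroup.mk_inv,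
          mul_inv_cancel_right, mul_inv_cancel])
    let cz : Y → Y → Z := fun a b => ⟨a * b * a⁻¹ * b⁻¹, hcz a b⟩
    have hcl : ∀ a a' b, cz (a * a') b = cz a b * cz a' b := by
      intro a a' b
      refine Subtype.ext ?_
      show a * a' * b * (a * a')⁻¹ * b⁻¹ = (a * b * a⁻¹ * b⁻¹) * (a' * b * a'⁻¹ * b⁻¹)
      rw [show a * a' * b * (a * a')⁻¹ * b⁻¹ = a * (a' * b * a'⁻¹ * b⁻¹) * (b * a⁻¹ * b⁻¹) by group,
        (hcz a' b).1 a,
        show a' * b * a'⁻¹ * b⁻¹ * a * (b * a⁻¹ * b⁻¹) =
          (a' * b * a'⁻¹ * b⁻¹) * (a * b * a⁻¹ * b⁻¹) by group, (hcz a b).1]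
    have hcr : ∀ a b b', cz a (b * b') = cz a b * cz a b' := by
      intro a b b'
      refine Subtype.ext ?_
      show a * (b * b') * a⁻¹ * (b * b')⁻¹ = (a * b * a⁻¹ * b⁻¹) * (a * b' * a⁻¹ * b'⁻¹)
      rw [show a * (b * b') * a⁻¹ * (b * b')⁻¹ = a * b * a⁻¹ * (a * b' * a⁻¹ * b'⁻¹) * b⁻¹ by group,
        (hcz a b').1 (a * b * a⁻¹), mul_assoc, ← (hcz a b').1 (a * b * a⁻¹ * b⁻¹)]
    have hc1 : ∀ a b, b ∈ Z → cz a b = 1 := by
      intro a b hb
      refine Subtype.ext ?_
      show a * b * a⁻¹ * b⁻¹ = 1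
      rw [hb.1 a]; group
    have hc1' : ∀ a b, a ∈ Z → cz a b = 1 := by
      intro a b ha
      refine Subtype.ext ?_
      show a * b * a⁻¹ * b⁻¹ = 1
      rw [← ha.1 b]; group
    have hPker : ∀ y, P y = 0 ↔ y ∈ Z := fun y => by
      show Φq (Additive.ofMul (y : Y ⧸ Z)) = 0 ↔ _
      rw [EmbeddingLike.map_eq_zero_iff, ← QuotientGroup.eq_one_iff]
      rfl
    have hPeqv : ∀ a b, P a = P b → ∃ z ∈ Z, a = b * z := by
      intro a b hab
      refine ⟨b⁻¹ * a, (hPker _).mp ?_, (mul_inv_cancel_left b a).symm⟩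
      have e := hPm b (b⁻¹ * a)
      rw [mul_inv_cancel_left, hab] at e
      exact left_eq_add.mp e
    let B : (Fin k → Fin 2 → K) → (Fin k → Fin 2 → K) → (Fin l → Fin 2 → K) :=
      fun u v => ΦZ (Additive.ofMul (cz (sec u) (sec v)))
    have hB : ∀ a b, B (P a) (P b) = ΦZ (Additive.ofMul (cz a b)) := by
      intro a b
      obtain ⟨z, hz, hza⟩ := hPeqv _ _ (hsec (P a))
      obtain ⟨z', hz', hzb⟩ := hPeqv _ _ (hsec (P b))
      show ΦZ (Additive.ofMul (cz (sec (P a)) (sec (P b)))) = _
      rw [hza, hzb, hcl, hcr, hc1 _ _ hz', hc1' _ _ hz, mul_one, mul_one]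
    have hBadd : ∀ a b, ΦZ (Additive.ofMul (a * b : Z)) =
        ΦZ (Additive.ofMul a) + ΦZ (Additive.ofMul b) := fun a b => map_add ΦZ _ _
    have hab : ∀ a b : Y, a * b = b * a := by
      intro a b
      have h0 := sum_pairing_eq_zero hq B
        (fun u v w => by
          rw [← hsec u, ← hsec v, ← hsec w, ← hPm, hB, hB, hB, hcl, hBadd])
        (fun u v w => by
          rw [← hsec u, ← hsec v, ← hsec w, ← hPm, hB, hB, hB, hcr, hBadd])
        (fun g u v => by
          obtain ⟨h, rfl⟩ := hπ g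
          rw [← hsec u, ← hsec v, ← hPe, ← hPe, hB, hB]
          funext i
          rw [← hΦZ]
          refine congrArg (fun w : Z => ΦZ (Additive.ofMul w) i) (Subtype.ext ?_)
          show φ h (sec u) * φ h (sec v) * (φ h (sec u))⁻¹ * (φ h (sec v))⁻¹ =
            φ h (sec u * sec v * (sec u)⁻¹ * (sec v)⁻¹)
          simp only [map_mul, map_inv])
        (P a) (P b)
      rw [hB, EmbeddingLike.map_eq_zero_iff] at h0
      have e : a * b * a⁻¹ * b⁻¹ = 1 := congrArg Subtype.val (show cz a b = 1 from h0)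
      rw [mul_inv_eq_one, mul_inv_eq_iff_eq_mul] at e
      exact e
    letI : CommGroup Y := { (inferInstance : Group Y) with mul_comm := hab }
    -- the abelian extension
    have hk0 : ∀ g, π g = 1 → ∀ y, φ g y = y := by
      intro g hg y
      obtain ⟨y₀, hy₀⟩ := hker g hg
      rw [hy₀, hab y₀, mul_inv_cancel_right]
    have hπ' := hπ
    choose s hs using hπ
    have hwd' : ∀ r h a, π h = r → φ (s r) a = φ h a := by
      intro r h a hr
      have h1 : π (h⁻¹ * s r) = 1 := by rw [map_mul, map_inv, hs, hr, inv_mul_cancel]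
      have := congrArg (φ h) (hk0 _ h1 a)
      rwa [← MulAut.mul_apply, ← map_mul, mul_inv_cancel_left] at this
    let ρ : SL(2, K) →* AddMonoid.End (Additive Y) :=
      { toFun := fun r => (φ (s r)).toMonoidHom.toAdditive
        map_one' := by
          refine AddMonoidHom.ext fun a => ?_
          show Additive.ofMul (φ (s 1) a.toMul) = a
          rw [hwd' 1 1 _ (map_one π), map_one]; rfl
        map_mul' := fun r r' => by
          refine AddMonoidHom.ext fun a => ?_
          show Additive.ofMul (φ (s (r * r')) a.toMul) = Additive.ofMul (φ (s r) (φ (s r') a.toMul))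
          rw [hwd' (r * r') (s r * s r') _ (by rw [map_mul, hs, hs]), map_mul]; rfl }
    let P' : Additive Y →+ (Fin k → Fin 2 → K) :=
      AddMonoidHom.mk' (fun a => P a.toMul) (fun a b => hPm _ _)
    let ι : (Fin l → Fin 2 → K) →+ Additive Y :=
      (MonoidHom.toAdditive Z.subtype).comp ΦZ.symm.toAddMonoidHom
    intro y
    refine double_eq_zero hq ρ P' (fun u => ⟨Additive.ofMul (sec u), hsec u⟩) ?_ ι ?_ ?_ ?_
      (Additive.ofMul y)
    · intro g a i
      show P (φ (s g) a.toMul) i = _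
      rw [hPe, hs]; rfl
    · exact fun a b h => ΦZ.symm.injective (Additive.toMul.injective (Subtype.ext
        (congrArg Additive.toMul h)))
    · intro a
      show P a.toMul = 0 ↔ _
      rw [hPker]
      constructor
      · intro h
        refine ⟨ΦZ (Additive.ofMul ⟨a.toMul, h⟩), ?_⟩
        show Additive.ofMul ((ΦZ.symm (ΦZ _)).toMul : Y) = a
        rw [ΦZ.symm_apply_apply]; rfl
      · rintro ⟨z, rfl⟩
        exact (ΦZ.symm z).toMul.2
    · intro g z
      show Additive.ofMul (φ (s g) ((ΦZ.symm z).toMul : Y)) = Additive.ofMul ((ΦZ.symm _).toMul : Y)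
      have e : ΦZ (Additive.ofMul (φz (s g) (ΦZ.symm z).toMul)) =
          fun i => (g : Matrix (Fin 2) (Fin 2) K).mulVec (z i) := funext fun i => by
        rw [hΦZ, hs, ofMul_toMul, ΦZ.apply_symm_apply]
      rw [← e, ΦZ.symm_apply_apply]
      rfl

end CfsgLib.SL2Three
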