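import Mathlib.LinearAlgebra.Matrix.SpecialLinearGroup
import Mathlib.LinearAlgebra.Dimension.Free
import Mathlib.LinearAlgebra.Dimension.Finite
import Mathlib.FieldTheory.Finite.Basic
import Mathlib.Algebra.CharP.Two
import Mathlib.Tactic

/-!
Modules in characteristic two for `SL₂` of a finite field of characteristic two on which the elements
of order three act without fixed points are sums of natural modules.
-/

set_option autoImplicit false

open scoped MatrixGroups

namespace CfsgLib.SL2Three

variable {K : Type*} [Field K]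

/-- Upper transvection. -/
def upT (a : K) : SL(2, K) := ⟨!![1, a; 0, 1], by simp [Matrix.det_fin_two]⟩

/-- Lower transvection. -/
def loT (a : K) : SL(2, K) := ⟨!![1, 0; a, 1], by simp [Matrix.det_fin_two]⟩

theorem upT_coe (a : K) : ((upT a : SL(2, K)) : Matrix (Fin 2) (Fin 2) K) = !![1, a; 0, 1] := rfl

theorem loT_coe (a : K) : ((loT a : SL(2, K)) : Matrix (Fin 2) (Fin 2) K) = !![1, 0; a, 1] := rfl

/-- The element inverting the torus. -/
def monT (a : K) : SL(2, K) := upT a * loT a⁻¹ * upT a

/-- The torus element. -/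
def torT (a : K) : SL(2, K) := monT a * monT 1

variable [CharP K 2]

theorem upT_mul (a b : K) : upT a * upT b = upT (a + b) := by
  ext i j; fin_cases i <;> fin_cases j <;>
    simp [Matrix.SpecialLinearGroup.coe_mul, upT_coe, Matrix.mul_apply, Fin.sum_univ_two, add_comm]

omit [CharP K 2] in
theorem upT_zero : upT (0 : K) = 1 := by
  ext i j; fin_cases i <;> fin_cases j <;> simp [upT_coe]

omit [CharP K 2] in
theorem loT_zero : loT (0 : K) = 1 := by
  ext i j; fin_cases i <;> fin_cases j <;> simp [loT_coe]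

theorem monT_coe {a : K} (ha : a ≠ 0) :
    ((monT a : SL(2, K)) : Matrix (Fin 2) (Fin 2) K) = !![0, a; a⁻¹, 0] := by
  ext i j; fin_cases i <;> fin_cases j <;>
    simp [monT, Matrix.SpecialLinearGroup.coe_mul, upT_coe, loT_coe, Matrix.mul_apply,
      Fin.sum_univ_two, ha, CharTwo.add_self_eq_zero]

theorem monT_one_coe : ((monT 1 : SL(2, K)) : Matrix (Fin 2) (Fin 2) K) = !![0, 1; 1, 0] := by
  rw [monT_coe one_ne_zero]; simp

theorem torT_coe {a : K} (ha : a ≠ 0) :
    ((torT a : SL(2, K)) : Matrix (Fin 2) (Fin 2) K) = !![a, 0; 0, a⁻¹] := by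
  ext i j; fin_cases i <;> fin_cases j <;>
    simp [torT, Matrix.SpecialLinearGroup.coe_mul, monT_coe ha, monT_one_coe, Matrix.mul_apply,
      Fin.sum_univ_two]

theorem monT_one_sq : monT (1 : K) * monT 1 = 1 := by
  ext i j; fin_cases i <;> fin_cases j <;>
    simp [Matrix.SpecialLinearGroup.coe_mul, monT_one_coe, Matrix.mul_apply, Fin.sum_univ_two]

theorem monT_conj_upT (c : K) : monT 1 * upT c * monT 1 = loT c := by
  ext i j; fin_cases i <;> fin_cases j <;>
    simp [Matrix.SpecialLinearGroup.coe_mul, monT_one_coe, upT_coe, loT_coe, Matrix.mul_apply,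
      Fin.sum_univ_two]

theorem torT_mul {a b : K} (ha : a ≠ 0) (hb : b ≠ 0) : torT a * torT b = torT (a * b) := by
  ext i j; fin_cases i <;> fin_cases j <;>
    simp [Matrix.SpecialLinearGroup.coe_mul, torT_coe ha, torT_coe hb, torT_coe (mul_ne_zero ha hb),
      Matrix.mul_apply, Fin.sum_univ_two, mul_comm]

theorem torT_upT {a : K} (ha : a ≠ 0) (c : K) : torT a * upT c = upT (a * a * c) * torT a := by
  ext i j; fin_cases i <;> fin_cases j <;>
    simp [Matrix.SpecialLinearGroup.coe_mul, torT_coe ha, upT_coe, Matrix.mul_apply,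
      Fin.sum_univ_two] <;> field_simp

theorem trace_upT_loT {a : K} (ha : a ≠ 0) :
    Matrix.trace ((upT a * loT a⁻¹ : SL(2, K)) : Matrix (Fin 2) (Fin 2) K) = 1 := by
  simp [Matrix.SpecialLinearGroup.coe_mul, upT_coe, loT_coe, Matrix.trace_fin_two, Matrix.mul_apply,
    Fin.sum_univ_two, ha, CharTwo.add_self_eq_zero]

theorem upT_loT_inv (a b : K) : (upT a * loT b) * (loT b * upT a) = 1 := by
  have h : loT b * loT b = 1 := by
    ext i j; fin_cases i <;> fin_cases j <;>
      simp [Matrix.SpecialLinearGroup.coe_mul, loT_coe, Matrix.mul_apply, Fin.sum_univ_two,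
        CharTwo.add_self_eq_zero]
  rw [mul_assoc, ← mul_assoc (loT b), h, one_mul, upT_mul, CharTwo.add_self_eq_zero, upT_zero]

theorem pow_three_of_trace {g : SL(2, K)}
    (h : Matrix.trace (g : Matrix (Fin 2) (Fin 2) K) = 1) : g ^ 3 = 1 := by
  rw [Matrix.trace_fin_two] at h
  have hd : g.1 0 0 * g.1 1 1 - g.1 0 1 * g.1 1 0 = 1 := by
    rw [← Matrix.det_fin_two]; exact g.2
  have h2 : (2 : K) = 0 := CharTwo.two_eq_zero
  ext i j
  simp only [pow_succ, pow_zero, one_mul, Matrix.SpecialLinearGroup.coe_mul, Matrix.SpecialLinearGroup.coe_one]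
  fin_cases i <;> fin_cases j <;> simp [Matrix.mul_apply, Fin.sum_univ_two]
  · linear_combination (g.1 0 0 + 1) * hd + (g.1 0 0 + 1) * (g.1 0 0) * h +
      (g.1 0 1 * g.1 1 0) * h + (g.1 0 1 * g.1 1 0 * g.1 0 0 + g.1 0 0 - g.1 0 0 * g.1 1 1 - g.1 0 0 ^ 2 * g.1 1 1 + g.1 0 1 * g.1 1 0) * h2
  · linear_combination g.1 0 1 * ((g.1 0 0 + g.1 1 1 + 1) * h - hd)
  · linear_combination g.1 1 0 * ((g.1 0 0 + g.1 1 1 + 1) * h - hd)
  · linear_combination (g.1 1 1 + 1) * hd + (g.1 1 1 + 1) * (g.1 1 1) * h +
      (g.1 0 1 * g.1 1 0) * h + (g.1 0 1 * g.1 1 0 * g.1 1 1 + g.1 1 1 - g.1 0 0 * g.1 1 1 - g.1 0 0 * g.1 1 1 ^ 2 + g.1 0 1 * g.1 1 0) * h2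

/-- The relations of the coordinate operators. -/
structure PRels {W : Type*} [AddCommGroup W] (p R : K → AddMonoid.End W) : Prop where
  self : ∀ w : W, w + w = 0
  p_zero : ∀ w, p 0 w = 0
  p_one : ∀ w, p 1 w = 0
  R_zero : ∀ w, R 0 w = 0
  R_one : ∀ w, R 1 w = w
  add_p : ∀ a b w, p (a + b) w = p a w + p b w + p a (p b w)
  add_R : ∀ a b w, R (a + b) w = R a w + R b w + (p a (R b w) + R a (p b w))
  mul_R : ∀ a b w, a ≠ 0 → b ≠ 0 →
    R (a * b) w = R a (R b w) + (p a (p b w + p b⁻¹ w) + p a⁻¹ (p b w + p b⁻¹ w))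
  conj : ∀ a c w, a ≠ 0 →
    R a (p c w) = p (a * a * c) (R a w) + R (a * a * c) (p a w + p a⁻¹ w)
  conj' : ∀ a w, a ≠ 0 → p a w + p a⁻¹ w = p (a * a) (R a⁻¹ w)

theorem exists_mul_self [Finite K] (x : K) : ∃ y, y * y = x :=
  (Finite.injective_iff_surjective.mp (fun a b (h : a * a = b * b) =>
    CharTwo.add_eq_zero.mp (mul_self_eq_zero.mp (by
      rw [CharTwo.add_mul_self, h, CharTwo.add_self_eq_zero])))) x

theorem PRels.p_eq_zero [Finite K] : ∀ (n : ℕ) {W : Type*} [AddCommGroup W] [Finite W]
    (p R : K → AddMonoid.End W), PRels p R → Nat.card W ≤ n → ∀ a w, p a w = 0 := by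
  intro n
  induction n with
  | zero =>
    intro W _ _ p R _ hn
    have := Nat.card_pos (α := W)
    omega
  | succ n ih =>
    intro W _ _ p R h hn
    classical
    by_contra hne
    push_neg at hne
    obtain ⟨a₁, w₁, hw₁⟩ := hne
    have pcomm : ∀ a b w, p a (p b w) = p b (p a w) := fun a b w => by
      have e1 := h.add_p a b w
      have e2 := h.add_p b a w
      rw [add_comm b a, e1, add_comm (p b w) (p a w)] at e2
      exact add_left_cancel e2
    let X : AddSubgroup W :=
      { carrier := {w | ∀ c, p c w = 0}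
        zero_mem' := fun c => map_zero _
        add_mem' := fun {u v} hu hv c => by rw [map_add, hu c, hv c, add_zero]
        neg_mem' := fun {u} hu c => by rw [map_neg, hu c, neg_zero] }
    have pX : ∀ b, ∀ w ∈ X, p b w ∈ X := fun b w hw c => by rw [hw b, map_zero]
    have RX : ∀ b, ∀ w ∈ X, R b w ∈ X := by
      intro b w hw c
      by_cases hb : b = 0
      · rw [hb, h.R_zero, map_zero]
      have := h.conj b (c / (b * b)) w hb
      rw [mul_div_cancel₀ _ (mul_ne_zero hb hb), hw, map_zero, hw b, hw b⁻¹, add_zero, map_zero,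
        add_zero] at this
      exact this.symm
    have hXne : ∃ w ∈ X, w ≠ 0 := by
      suffices H : ∀ (S : Finset K) (w : W), w ≠ 0 → ∃ v, v ≠ 0 ∧ ∀ c ∈ S, p c v = 0 by
        letI := Fintype.ofFinite K
        obtain ⟨v, hv, hv'⟩ := H Finset.univ (p a₁ w₁) hw₁
        exact ⟨v, fun c => hv' c (Finset.mem_univ c), hv⟩
      intro S
      induction S using Finset.induction_on with
      | empty => exact fun w hw => ⟨w, hw, by simp⟩
      | @insert c S hc ihS =>
        intro w hw
        obtain ⟨v, hv, hvS⟩ := ihS w hw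
        by_cases hcv : p c v = 0
        · exact ⟨v, hv, fun d hd => (Finset.mem_insert.mp hd).elim (fun e => e ▸ hcv) (hvS d)⟩
        refine ⟨p c v, hcv, fun d hd => (Finset.mem_insert.mp hd).elim (fun e => ?_)
          (fun hd' => by rw [pcomm, hvS d hd', map_zero])⟩
        have e2 := h.add_p c c v
        rw [CharTwo.add_self_eq_zero, h.p_zero, h.self, zero_add] at e2
        rw [e]; exact e2.symm
    -- the quotient
    let Q (f : AddMonoid.End W) (hf : ∀ w ∈ X, f w ∈ X) : AddMonoid.End (W ⧸ X) :=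
      QuotientAddGroup.map X X f hf
    let pb : K → AddMonoid.End (W ⧸ X) := fun a => Q (p a) (pX a)
    let Rb : K → AddMonoid.End (W ⧸ X) := fun a => Q (R a) (RX a)
    have hp : ∀ a (w : W), pb a (w : W ⧸ X) = ((p a w : W) : W ⧸ X) := fun a w => rfl
    have hR : ∀ a (w : W), Rb a (w : W ⧸ X) = ((R a w : W) : W ⧸ X) := fun a w => rfl
    have hcard : Nat.card (W ⧸ X) ≤ n := by
      obtain ⟨v, hv, hv0⟩ := hXne
      haveI : Nontrivial X := ⟨⟨⟨v, hv⟩, 0, fun e => hv0 (congrArg Subtype.val e)⟩⟩
      have h2 : 1 < Nat.card X := Finite.one_lt_card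
      have hq : 0 < Nat.card (W ⧸ X) := Nat.card_pos
      rw [AddSubgroup.card_eq_card_quotient_mul_card_addSubgroup X] at hn
      have := Nat.mul_le_mul_left (Nat.card (W ⧸ X)) (show 2 ≤ Nat.card X from h2)
      omega
    have hq : PRels pb Rb :=
      { self := fun w => by
          induction w using QuotientAddGroup.induction_on with | _ w => ?_
          rw [← QuotientAddGroup.mk_add, h.self]; rfl
        p_zero := fun w => by
          induction w using QuotientAddGroup.induction_on with | _ w => ?_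
          rw [hp, h.p_zero]; rfl
        p_one := fun w => by
          induction w using QuotientAddGroup.induction_on with | _ w => ?_
          rw [hp, h.p_one]; rfl
        R_zero := fun w => by
          induction w using QuotientAddGroup.induction_on with | _ w => ?_
          rw [hR, h.R_zero]; rfl
        R_one := fun w => by
          induction w using QuotientAddGroup.induction_on with | _ w => ?_
          rw [hR, h.R_one]
        add_p := fun a b w => by
          induction w using QuotientAddGroup.induction_on with | _ w => ?_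
          simp only [hp, ← QuotientAddGroup.mk_add, h.add_p]
        add_R := fun a b w => by
          induction w using QuotientAddGroup.induction_on with | _ w => ?_
          simp only [hp, hR, ← QuotientAddGroup.mk_add, h.add_R]
        mul_R := fun a b w ha hb => by
          induction w using QuotientAddGroup.induction_on with | _ w => ?_
          simp only [hp, hR, ← QuotientAddGroup.mk_add, h.mul_R a b w ha hb]
        conj := fun a c w ha => by
          induction w using QuotientAddGroup.induction_on with | _ w => ?_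
          simp only [hp, hR, ← QuotientAddGroup.mk_add, h.conj a c w ha]
        conj' := fun a w ha => by
          induction w using QuotientAddGroup.induction_on with | _ w => ?_
          simp only [hp, hR, ← QuotientAddGroup.mk_add, h.conj' a w ha] }
    have hin : ∀ a w, p a w ∈ X := fun a w =>
      (QuotientAddGroup.eq_zero_iff _).mp ((hp a w).symm.trans (ih pb Rb hq hcard a (w : W ⧸ X)))
    have hpp : ∀ a b w, p a (p b w) = 0 := fun a b w => hin b w a
    have padd : ∀ a b w, p (a + b) w = p a w + p b w := fun a b w => by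
      rw [h.add_p, hpp, add_zero]
    have pR_add : ∀ c a b w, p c (R (a + b) w) = p c (R a w) + p c (R b w) := by
      intro c a b w
      rw [h.add_R, map_add, map_add, map_add, hpp, RX a _ (hin b w) c, add_zero, add_zero]
    have Rmul : ∀ a b, a ≠ 0 → b ≠ 0 → ∀ w, R (a * b) w = R a (R b w) := fun a b ha hb w => by
      rw [h.mul_R a b w ha hb]
      simp only [map_add, hpp, add_zero]
    have hR1 : ∀ a, a ≠ 0 → ∀ w, R a⁻¹ (R a w) = w := fun a ha w => by
      rw [← Rmul _ _ (inv_ne_zero ha) ha, inv_mul_cancel₀ ha, h.R_one]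
    have e1 : ∀ a, a ≠ 0 → ∀ w, p (a * a) w = p a (R a w) + p a⁻¹ (R a w) := fun a ha w => by
      rw [h.conj' a (R a w) ha, hR1 a ha]
    have e2 : ∀ b, b ≠ 0 → ∀ w, p b⁻¹ w = p b (R b⁻¹ w) := by
      intro b hb w
      obtain ⟨a, rfl⟩ := exists_mul_self b
      have ha : a ≠ 0 := fun e => hb (by simp [e])
      rw [mul_inv, e1 _ (inv_ne_zero ha), inv_inv, e1 a ha,
        ← Rmul a (a⁻¹ * a⁻¹) ha (mul_ne_zero (inv_ne_zero ha) (inv_ne_zero ha)),
        ← mul_assoc, mul_inv_cancel₀ ha, one_mul, add_comm]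
    have e3 : ∀ a w, p (a * a) w = p a (R a w) + p a w := by
      intro a w
      by_cases ha : a = 0
      · simp [ha, h.p_zero]
      rw [e1 a ha, e2 a ha (R a w), hR1 a ha]
    apply hw₁
    have e4 := e3 (a₁ + 1) w₁
    rw [show (a₁ + 1) * (a₁ + 1) = a₁ * a₁ + 1 by rw [CharTwo.add_mul_self, mul_one],
      ] at e4
    simp only [padd, h.p_one, add_zero] at e4
    rw [e3 a₁, pR_add, h.R_one] at e4
    have e5 : p a₁ (R a₁ w₁) + p a₁ w₁ + (p a₁ (R a₁ w₁) + p a₁ w₁) = p a₁ w₁ := by
      nth_rw 2 [e4]
      calc p a₁ (R a₁ w₁) + p a₁ w₁ + (p a₁ (R a₁ w₁) + p a₁ w₁ + p a₁ w₁)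
          = (p a₁ (R a₁ w₁) + p a₁ (R a₁ w₁)) + (p a₁ w₁ + p a₁ w₁) + p a₁ w₁ := by abel
        _ = p a₁ w₁ := by rw [h.self, h.self, zero_add, zero_add]
    rw [← e5, h.self]

variable [Finite K]

/-- Coordinates in which the group acts as a sum of natural modules. -/
theorem exists_natural_coords {V : Type*} [AddCommGroup V] [Finite V]
    (hV : ∀ v : V, v + v = 0) (ρ : SL(2, K) →* AddMonoid.End V)
    (hfpf : ∀ g : SL(2, K), Matrix.trace (g : Matrix (Fin 2) (Fin 2) K) = 1 →
      ∀ v, ρ g v = v → v = 0) :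
    ∃ (k : ℕ) (Φ : V ≃+ (Fin k → Fin 2 → K)),
      ∀ g v i, Φ (ρ g v) i = (g : Matrix (Fin 2) (Fin 2) K).mulVec (Φ v i) := by
  classical
  have hneg : ∀ v : V, -v = v := fun v => neg_eq_of_add_eq_zero_left (hV v)
  have hmul : ∀ g k v, ρ (g * k) v = ρ g (ρ k v) := fun g k v => by rw [map_mul]; rfl
  have h1v : ∀ v, ρ 1 v = v := fun v => by rw [map_one]; rfl
  let A : K → AddMonoid.End V := fun a => ρ (upT a) + 1
  let B : K → AddMonoid.End V := fun a => ρ (loT a) + 1
  have hA : ∀ a v, A a v = ρ (upT a) v + v := fun a v => rfl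
  have hB : ∀ a v, B a v = ρ (loT a) v + v := fun a v => rfl
  have hu : ∀ a v, ρ (upT a) v = A a v + v := fun a v => by
    rw [hA, add_assoc, hV, add_zero]
  have hl : ∀ a v, ρ (loT a) v = B a v + v := fun a v => by
    rw [hB, add_assoc, hV, add_zero]
  have hAadd : ∀ a b v, A (a + b) v = A a v + A b v + A a (A b v) := by
    intro a b v
    rw [hA (a + b), ← upT_mul, hmul, hu a (ρ (upT b) v), hu b v, map_add]
    calc A a (A b v) + A a v + (A b v + v) + v
        = A a v + A b v + A a (A b v) + (v + v) := by abel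
      _ = _ := by rw [hV, add_zero]
  have hA0 : ∀ v, A 0 v = 0 := fun v => by rw [hA, upT_zero, h1v, hV]
  have hAA : ∀ a v, A a (A a v) = 0 := fun a v => by
    have := hAadd a a v
    rwa [CharTwo.add_self_eq_zero, hA0, hV, zero_add, eq_comm] at this
  have hAc : ∀ a b v, A a (A b v) = A b (A a v) := fun a b v => by
    have e1 := hAadd a b v
    have e2 := hAadd b a v
    rw [add_comm b a, e1, add_comm (A b v) (A a v)] at e2
    exact add_left_cancel e2
  have hthree : ∀ a, a ≠ 0 → ∀ v, A a (B a⁻¹ v) + B a⁻¹ (A a v) = v := by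
    intro a ha v
    have ht := trace_upT_loT ha
    set g := upT a * loT a⁻¹ with hg
    have hinv : loT a⁻¹ * upT a = g * g := by
      have h3 := pow_three_of_trace ht
      rw [pow_succ, pow_two] at h3
      have e := upT_loT_inv a a⁻¹
      rw [← hg] at e
      rw [← mul_left_cancel_iff (a := g), e, ← mul_assoc, h3]
    have e : ρ (g * g) v + ρ g v + v = 0 := by
      refine hfpf g ht _ ?_
      have h3 := pow_three_of_trace ht
      rw [pow_succ, pow_two] at h3
      rw [map_add, map_add, ← hmul, ← hmul, ← mul_assoc, h3, h1v]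
      abel
    rw [← hinv, hg, hmul, hmul, hl a⁻¹ (ρ (upT a) v), hu a (ρ (loT a⁻¹) v), hu a v, hl a⁻¹ v,
      map_add, map_add] at e
    have e2 : A a (B a⁻¹ v) + B a⁻¹ (A a v) +
        ((A a v + A a v) + (B a⁻¹ v + B a⁻¹ v) + (v + v) + v) = 0 := by
      rw [← e]; abel
    simp only [hV, add_zero, zero_add] at e2
    exact (eq_neg_of_add_eq_zero_left e2).trans (hneg v)
  have h11 : ∀ v, A 1 (B 1 v) + B 1 (A 1 v) = v := fun v => by
    simpa using hthree 1 one_ne_zero v
  let W : AddSubgroup V :=
    { carrier := {v | A 1 v = 0}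
      zero_mem' := map_zero _
      add_mem' := fun {u v} hu hv => by
        show A 1 (u + v) = 0
        rw [map_add, hu, hv, add_zero]
      neg_mem' := fun {u} hu => by
        show A 1 (-u) = 0
        rw [map_neg, hu, neg_zero] }
  let bk : W → W → V := fun x y => (x : V) + B 1 (y : V)
  let fX : V →+ W := AddMonoidHom.mk' (fun v => (⟨A 1 (B 1 v), hAA 1 _⟩ : W))
    (fun u v => Subtype.ext (show A 1 (B 1 (u + v)) = A 1 (B 1 u) + A 1 (B 1 v) by
      rw [map_add, map_add]))
  let fY : V →+ W := AddMonoidHom.mk' (fun v => (⟨A 1 v, hAA 1 _⟩ : W))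
    (fun u v => Subtype.ext (show A 1 (u + v) = A 1 u + A 1 v by rw [map_add]))
  have hback : ∀ v, bk (fX v) (fY v) = v := fun v => h11 v
  have hAB1 : ∀ w : W, A 1 (B 1 (w : V)) = w := fun w => by
    have := h11 (w : V)
    rwa [show A 1 (w : V) = 0 from w.2, map_zero, add_zero] at this
  have hBB : ∀ v, B 1 (B 1 v) = 0 := fun v => by
    have hl2 : loT (1 : K) * loT 1 = 1 := by
      rw [← monT_conj_upT 1]
      calc monT (1 : K) * upT 1 * monT 1 * (monT 1 * upT 1 * monT 1)
          = monT 1 * upT 1 * (monT 1 * monT 1) * upT 1 * monT 1 := by group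
        _ = monT 1 * (upT 1 * upT 1) * monT 1 := by rw [monT_one_sq, mul_one]; group
        _ = 1 := by rw [upT_mul, CharTwo.add_self_eq_zero, upT_zero, mul_one, monT_one_sq]
    rw [hB 1, hB 1 v, map_add, ← hmul, hl2, h1v]
    calc v + ρ (loT 1) v + (ρ (loT 1) v + v) =
        (v + v) + (ρ (loT 1) v + ρ (loT 1) v) := by abel
      _ = 0 := by rw [hV, hV, add_zero]
  have hXb : ∀ x y, fX (bk x y) = x := fun x y => Subtype.ext (by
    show A 1 (B 1 ((x : V) + B 1 (y : V))) = x
    rw [map_add, hBB, add_zero, hAB1])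
  have hYb : ∀ x y, fY (bk x y) = y := fun x y => Subtype.ext (by
    show A 1 ((x : V) + B 1 (y : V)) = y
    rw [map_add, show A 1 (x : V) = 0 from x.2, zero_add, hAB1])
  have hpW : ∀ a (w : W), A 1 (A a (w : V)) = 0 := fun a w => by
    rw [hAc, show A 1 (w : V) = 0 from w.2, map_zero]
  let p : K → AddMonoid.End W := fun a => AddMonoidHom.mk'
    (fun w => (⟨A a (w : V), hpW a w⟩ : W))
    (fun u w => Subtype.ext (show A a ((u : V) + w) = _ by rw [map_add]; rfl))
  let R : K → AddMonoid.End W := fun a => AddMonoidHom.mk'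
    (fun w => fX (A a (B 1 (w : V))))
    (fun u w => by rw [AddSubgroup.coe_add, map_add, map_add, map_add])
  have bk_add : ∀ x y x' y', bk x y + bk x' y' = bk (x + x') (y + y') := fun x y x' y' => by
    simp only [bk, AddSubgroup.coe_add, map_add]; abel
  have actA : ∀ a x y, A a (bk x y) = bk (p a x + R a y) (p a y) := by
    intro a x y
    have e : A a (B 1 (y : V)) = bk (R a y) (p a y) := by
      have e1 : fY (A a (B 1 (y : V))) = p a y := Subtype.ext (by
        show A 1 (A a (B 1 (y : V))) = A a (y : V)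
        rw [hAc, hAB1])
      rw [← e1]; exact (hback _).symm
    show A a ((x : V) + B 1 (y : V)) = _
    rw [map_add, e]
    show A a (x : V) + ((R a y : V) + B 1 (p a y : V)) = (p a x : V) + (R a y : V) + B 1 (p a y : V)
    rw [← add_assoc]; rfl
  have actw : ∀ x y, ρ (monT 1) (bk x y) = bk y x := by
    intro x y
    have s1 : A 1 (bk x y) = (y : V) := congrArg Subtype.val (hYb x y)
    have s2 : B 1 (bk x y) = B 1 (x : V) := by
      show B 1 ((x : V) + B 1 (y : V)) = _
      rw [map_add, hBB, add_zero]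
    have e1 : ρ (upT 1) (bk x y) = (y : V) + ((x : V) + B 1 (y : V)) := by
      rw [hu, s1]
    have e2 : ρ (loT 1) (ρ (upT 1) (bk x y)) = (y : V) + (x : V) + B 1 (x : V) := by
      rw [e1, hl, map_add, map_add, hBB]
      calc B 1 (y : V) + (B 1 (x : V) + 0) + ((y : V) + ((x : V) + B 1 (y : V)))
          = (y : V) + (x : V) + B 1 (x : V) + (B 1 (y : V) + B 1 (y : V)) := by abel
        _ = _ := by rw [hV, add_zero]
    show ρ (upT 1 * loT (1 : K)⁻¹ * upT 1) _ = (y : V) + B 1 (x : V)
    rw [inv_one, hmul, hmul, e2, hu, map_add, map_add, show A 1 (y : V) = 0 from y.2,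
      show A 1 (x : V) = 0 from x.2, hAB1]
    calc (0 : V) + 0 + (x : V) + ((y : V) + (x : V) + B 1 (x : V))
        = (y : V) + B 1 (x : V) + ((x : V) + (x : V)) := by abel
      _ = _ := by rw [hV, add_zero]
  have actB : ∀ a x y, B a (bk x y) = bk (p a x) (p a y + R a x) := by
    intro a x y
    rw [hB, ← monT_conj_upT a, hmul, hmul, actw, hu, actA, bk_add, actw, bk_add]
    congr 1
    · rw [add_assoc, show x + x = 0 from Subtype.ext (hV x), add_zero]
    · rw [add_assoc, show y + y = 0 from Subtype.ext (hV y), add_zero]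
  have hWs : ∀ x : W, x + x = 0 := fun x => Subtype.ext (hV x)
  have actM : ∀ a, a ≠ 0 → ∀ v, ρ (monT a) v = A a v + B a⁻¹ v := by
    intro a ha v
    have hABA : A a (B a⁻¹ (A a v)) = A a v := by
      have := hthree a ha (A a v)
      rwa [hAA, map_zero, add_zero] at this
    have e2 : ρ (loT a⁻¹) (ρ (upT a) v) = B a⁻¹ (A a v) + B a⁻¹ v + (A a v + v) := by
      rw [hu, hl, map_add]
    have e3 : A a (ρ (loT a⁻¹) (ρ (upT a) v)) = A a (B a⁻¹ v) := by
      rw [e2, map_add, map_add, map_add, hABA, hAA]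
      calc A a v + A a (B a⁻¹ v) + (0 + A a v) = A a (B a⁻¹ v) + (A a v + A a v) := by abel
        _ = _ := by rw [hV, add_zero]
    show ρ (upT a * loT a⁻¹ * upT a) v = _
    rw [hmul, hmul, hu a (ρ (loT a⁻¹) (ρ (upT a) v)), e3, e2]
    calc A a (B a⁻¹ v) + (B a⁻¹ (A a v) + B a⁻¹ v + (A a v + v))
        = (A a (B a⁻¹ v) + B a⁻¹ (A a v)) + v + (A a v + B a⁻¹ v) := by abel
      _ = _ := by rw [hthree a ha v, hV, zero_add]
  have actT : ∀ a, a ≠ 0 → ∀ x y, ρ (torT a) (bk x y) =
      bk (R a x + (p a y + p a⁻¹ y)) (R a⁻¹ y + (p a x + p a⁻¹ x)) := by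
    intro a ha x y
    rw [torT, hmul, actw, actM a ha, actA, actB, bk_add]
    congr 1 <;> abel
  have bk_inj : ∀ {x y x' y'}, bk x y = bk x' y' → x = x' ∧ y = y' := fun {x y x' y'} e =>
    ⟨by have := congrArg fX e; rwa [hXb, hXb] at this,
      by have := congrArg fY e; rwa [hYb, hYb] at this⟩
  have hPR : PRels p R :=
    { self := hWs
      p_zero := fun w => Subtype.ext (hA0 _)
      p_one := fun w => Subtype.ext w.2
      R_zero := fun w => by
        show fX (A 0 _) = 0
        rw [hA0, map_zero]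
      R_one := fun w => Subtype.ext (by
        show A 1 (B 1 (A 1 (B 1 (w : V)))) = w
        rw [hAB1, hAB1])
      add_p := fun a b w => Subtype.ext (hAadd a b _)
      add_R := fun a b w => by
        have e := hAadd a b (bk 0 w)
        rw [actA, actA, actA, actA, bk_add, bk_add] at e
        have := (bk_inj e).1
        simp only [map_zero, zero_add] at this
        exact this
      mul_R := fun a b w ha hb => by
        have e := hmul (torT a) (torT b) (bk w 0)
        rw [torT_mul ha hb, actT _ (mul_ne_zero ha hb), actT b hb, actT a ha] at e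
        have := (bk_inj e).1
        simp only [map_zero, add_zero, zero_add, map_add] at this
        rw [this, map_add, map_add]
      conj := fun a c w ha => by
        have e := congrArg (fun g => ρ g (bk w 0)) (torT_upT ha c)
        rw [hmul, hmul, hu, actA, bk_add, actT a ha, actT a ha, hu, actA, bk_add] at e
        have := (bk_inj e).1
        simp only [map_zero, add_zero, zero_add, map_add] at this
        rw [map_add]
        refine add_right_cancel (b := R a w) ?_
        exact this
      conj' := fun a w ha => by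
        have e := congrArg (fun g => ρ g (bk 0 w)) (torT_upT ha 1)
        rw [hmul, hmul, hu, actA, bk_add, actT a ha, actT a ha, hu, actA, bk_add] at e
        have := (bk_inj e).2
        simp only [map_zero, add_zero, zero_add, map_add, mul_one, show p 1 w = 0 from Subtype.ext w.2,
          show R 1 w = w from Subtype.ext (by
            show A 1 (B 1 (A 1 (B 1 (w : V)))) = w
            rw [hAB1, hAB1])] at this
        refine add_left_cancel (a := R a⁻¹ w) ?_
        rw [this]; abel }
  have hp0 := PRels.p_eq_zero (Nat.card W) p R hPR le_rfl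
  have Radd : ∀ a b w, R (a + b) w = R a w + R b w := fun a b w => by
    rw [hPR.add_R, hp0, hp0, map_zero, add_zero, add_zero]
  have Rmul : ∀ a b w, R (a * b) w = R a (R b w) := by
    intro a b w
    by_cases ha : a = 0
    · simp [ha, hPR.R_zero]
    by_cases hb : b = 0
    · simp [hb, hPR.R_zero]
    rw [hPR.mul_R a b w ha hb]
    simp only [hp0, map_zero, add_zero]
  let Rh : K →+* AddMonoid.End W :=
    { toFun := R
      map_one' := AddMonoidHom.ext hPR.R_one
      map_mul' := fun a b => AddMonoidHom.ext fun w => Rmul a b w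
      map_zero' := AddMonoidHom.ext hPR.R_zero
      map_add' := fun a b => AddMonoidHom.ext fun w => Radd a b w }
  letI : Module K W := Module.compHom W Rh
  haveI : Module.Finite K W := Module.Finite.of_finite
  let c := (Module.finBasis K W).equivFun
  have hc : ∀ a (w : W), c (R a w) = a • c w := fun a w => map_smul c a w
  have cbk : ∀ {x y}, c (fX (bk x y)) = c x ∧ c (fY (bk x y)) = c y := fun {x y} => by
    rw [hXb, hYb]; exact ⟨rfl, rfl⟩
  let Φ : V ≃+ (Fin (Module.finrank K W) → Fin 2 → K) :=
    { toFun := fun v i => ![c (fX v) i, c (fY v) i]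
      invFun := fun f => bk (c.symm fun i => f i 0) (c.symm fun i => f i 1)
      left_inv := fun v => by
        show bk (c.symm (c (fX v))) (c.symm (c (fY v))) = v
        rw [LinearEquiv.symm_apply_apply, LinearEquiv.symm_apply_apply, hback]
      right_inv := fun f => by
        funext i j
        fin_cases j <;> simp [hXb, hYb]
      map_add' := fun u v => by
        funext i j
        fin_cases j <;> simp }
  refine ⟨_, Φ, fun g => ?_⟩
  let H : Subgroup SL(2, K) :=
    { carrier := {g | ∀ v i, Φ (ρ g v) i = (g : Matrix (Fin 2) (Fin 2) K).mulVec (Φ v i)}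
      one_mem' := fun v i => by rw [h1v]; simp
      mul_mem' := fun {g k} hg hk v i => by
        rw [hmul, hg, hk, Matrix.mulVec_mulVec, ← Matrix.SpecialLinearGroup.coe_mul]
      inv_mem' := fun {g} hg v i => by
        have := hg (ρ g⁻¹ v) i
        rw [← hmul, mul_inv_cancel, h1v] at this
        rw [this, Matrix.mulVec_mulVec, ← Matrix.SpecialLinearGroup.coe_mul, inv_mul_cancel]
        simp }
  have hH1 : ∀ a, upT a ∈ H := by
    intro a v i
    conv_lhs => rw [← hback v, hu, actA, bk_add, hp0, hp0, zero_add, zero_add]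
    show ![c (fX _) i, c (fY _) i] = _
    rw [hXb, hYb, map_add, hc]
    show _ = (upT a : Matrix (Fin 2) (Fin 2) K).mulVec ![c (fX v) i, c (fY v) i]
    funext j
    fin_cases j <;> simp [upT_coe, Matrix.mulVec, dotProduct, Fin.sum_univ_two]; ring
  have hH2 : monT 1 ∈ H := by
    intro v i
    conv_lhs => rw [← hback v, actw]
    show ![c (fX _) i, c (fY _) i] = _
    rw [hXb, hYb]
    show _ = ((monT (1 : K) : SL(2, K)) : Matrix (Fin 2) (Fin 2) K).mulVec ![c (fX v) i, c (fY v) i]
    funext j
    fin_cases j <;> simp [monT_one_coe]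
  have hH3 : ∀ a, loT a ∈ H := fun a =>
    monT_conj_upT a ▸ H.mul_mem (H.mul_mem hH2 (hH1 a)) hH2
  have hne : ∀ g : SL(2, K), g.1 1 0 ≠ 0 → g ∈ H := by
    intro g hg
    have hd : g.1 0 0 * g.1 1 1 - g.1 0 1 * g.1 1 0 = 1 := by
      rw [← Matrix.det_fin_two]; exact g.2
    have : g = upT ((g.1 0 0 - 1) / g.1 1 0) * loT (g.1 1 0) * upT ((g.1 1 1 - 1) / g.1 1 0) := by
      ext i j
      fin_cases i <;> fin_cases j <;>
        simp [Matrix.SpecialLinearGroup.coe_mul, upT_coe, loT_coe, Matrix.mul_apply, Fin.sum_univ_two] <;>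
        field_simp <;> first | ring1 | linear_combination hd | linear_combination -hd
    rw [this]
    exact H.mul_mem (H.mul_mem (hH1 _) (hH3 _)) (hH1 _)
  have hmem : g ∈ H := by
    by_cases hg : g.1 1 0 = 0
    · have hd : g.1 0 0 * g.1 1 1 - g.1 0 1 * g.1 1 0 = 1 := by
        rw [← Matrix.det_fin_two]; exact g.2
      have h' := hne (monT 1 * g) (by
        simp [Matrix.SpecialLinearGroup.coe_mul, monT_one_coe, Matrix.mul_apply, Fin.sum_univ_two]
        intro e
        rw [e, hg] at hd
        simp at hd)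
      have := H.mul_mem hH2 h'
      rwa [← mul_assoc, monT_one_sq, one_mul] at this
    · exact hne g hg
  exact hmem

end CfsgLib.SL2Three
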