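import Cfsg.Agent.SL2OrderThree.Coords

/-!
Extensions between sums of natural modules for `SL₂` in characteristic two: equivariant pairings
vanish, and an abelian extension has exponent two.
-/

set_option autoImplicit false

open scoped MatrixGroups

namespace CfsgLib.SL2Three

variable {K : Type*} [Field K] [CharP K 2]

theorem upT_mulVec (s a b : K) :
    ((upT s : SL(2, K)) : Matrix (Fin 2) (Fin 2) K).mulVec ![a, b] = ![a + s * b, b] := by
  funext j; fin_cases j <;> simp [upT_coe, Matrix.mulVec, dotProduct, Fin.sum_univ_two]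

theorem monT_mulVec (a b : K) :
    ((monT (1 : K) : SL(2, K)) : Matrix (Fin 2) (Fin 2) K).mulVec ![a, b] = ![b, a] := by
  funext j; fin_cases j <;> simp [monT_one_coe, Matrix.mulVec, dotProduct, Fin.sum_univ_two]

theorem torT_mulVec {t : K} (ht : t ≠ 0) (a b : K) :
    ((torT t : SL(2, K)) : Matrix (Fin 2) (Fin 2) K).mulVec ![a, b] = ![t * a, t⁻¹ * b] := by
  funext j; fin_cases j <;> simp [torT_coe ht, Matrix.mulVec, dotProduct, Fin.sum_univ_two]

theorem vec_eta (v : Fin 2 → K) : v = ![v 0, v 1] := by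
  funext j; fin_cases j <;> rfl

/-- An equivariant biadditive map between natural modules vanishes. -/
theorem natural_pairing_eq_zero (hq : ∃ t : K, t ≠ 0 ∧ t ≠ 1) (B : (Fin 2 → K) → (Fin 2 → K) → (Fin 2 → K))
    (hl : ∀ u v w, B (u + v) w = B u w + B v w) (hr : ∀ u v w, B u (v + w) = B u v + B u w)
    (heq : ∀ (g : SL(2, K)) u v, B ((g : Matrix (Fin 2) (Fin 2) K).mulVec u)
      ((g : Matrix (Fin 2) (Fin 2) K).mulVec v) = (g : Matrix (Fin 2) (Fin 2) K).mulVec (B u v))
    (u v : Fin 2 → K) : B u v = 0 := by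
  have hu : ∀ s a b c d, B ![a + s * b, b] ![c + s * d, d] =
      ![B ![a, b] ![c, d] 0 + s * B ![a, b] ![c, d] 1, B ![a, b] ![c, d] 1] := fun s a b c d => by
    have := heq (upT s) ![a, b] ![c, d]
    rw [upT_mulVec, upT_mulVec, vec_eta (B ![a, b] ![c, d]), upT_mulVec] at this
    simpa using this
  have hadd : ∀ a b c d : K, ![a + c, b + d] = ![a, b] + ![c, d] := fun a b c d => by
    funext j; fin_cases j <;> rfl
  have hsplit : ∀ a b : K, ![a, b] = ![a, 0] + ![0, b] := fun a b => by
    rw [← hadd]; simp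
  let f : K → K → K := fun a b => B ![a, 0] ![b, 0] 0
  have hf1 : ∀ a b, B ![a, 0] ![b, 0] 1 = 0 := fun a b => by
    have := congrFun (hu 1 a 0 b 0) 0
    simpa using this
  have hr' : ∀ a b s, f a (s * b) = s * B ![a, 0] ![0, b] 1 := fun a b s => by
    have := congrFun (hu s a 0 0 b) 0
    rw [mul_zero, add_zero, zero_add, hsplit (s * b) b, hr] at this
    simp only [Pi.add_apply, Matrix.cons_val_zero] at this
    show B ![a, 0] ![s * b, 0] 0 = _
    linear_combination this
  have hl' : ∀ a b s, f (s * a) b = s * B ![0, a] ![b, 0] 1 := fun a b s => by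
    have := congrFun (hu s 0 a b 0) 0
    rw [mul_zero, add_zero, zero_add, hsplit (s * a) a, hl] at this
    simp only [Pi.add_apply, Matrix.cons_val_zero] at this
    show B ![s * a, 0] ![b, 0] 0 = _
    linear_combination this
  have hk : ∀ a b, f a b = a * b * f 1 1 := by
    intro a b
    have e1 := hr' a 1 b
    have e2 := hr' a 1 1
    have e3 := hl' 1 1 a
    have e4 := hl' 1 1 1
    simp only [mul_one, one_mul] at e1 e2 e3 e4
    rw [e1, ← e2, e3, ← e4]; ring
  have hκ : f 1 1 = 0 := by
    obtain ⟨t, ht0, ht1⟩ := hq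
    have := congrFun (heq (torT t) ![1, 0] ![1, 0]) 0
    rw [torT_mulVec ht0, vec_eta (B ![1, 0] ![1, 0]), torT_mulVec ht0] at this
    simp only [mul_one, mul_zero, Matrix.cons_val_zero] at this
    have e : t * t * f 1 1 = t * f 1 1 := by rw [← hk]; exact this
    by_contra hne
    exact ht1 (mul_left_cancel₀ ht0 (by rw [mul_one]; exact mul_right_cancel₀ hne e))
  have hXX : ∀ a b, B ![a, 0] ![b, 0] = 0 := fun a b => by
    funext j
    fin_cases j
    · show f a b = 0
      rw [hk, hκ, mul_zero]
    · exact hf1 a b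
  have hw : ∀ a b c d, B ![b, a] ![d, c] = ![B ![a, b] ![c, d] 1, B ![a, b] ![c, d] 0] :=
    fun a b c d => by
      have := heq (monT 1) ![a, b] ![c, d]
      rwa [monT_mulVec, monT_mulVec, vec_eta (B ![a, b] ![c, d]), monT_mulVec] at this
  have g1 : ∀ a b, B ![a, 0] ![0, b] 1 = 0 := fun a b => by
    have := hr' a b 1
    rw [one_mul, one_mul] at this
    rw [← this]; exact congrFun (hXX a b) 0
  have g2 : ∀ a b, B ![0, a] ![b, 0] 1 = 0 := fun a b => by
    have := hl' a b 1
    rw [one_mul, one_mul] at this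
    rw [← this]; exact congrFun (hXX a b) 0
  have hXY : ∀ a b, B ![a, 0] ![0, b] = 0 := fun a b => by
    funext j
    fin_cases j
    · have := congrFun (hw 0 a b 0) 0
      simp only [Matrix.cons_val_zero] at this
      show B ![a, 0] ![0, b] 0 = 0
      rw [this]; exact g2 a b
    · exact g1 a b
  have hYX : ∀ a b, B ![0, a] ![b, 0] = 0 := fun a b => by
    rw [hw a 0 0 b, hXY]; funext j; fin_cases j <;> rfl
  have hYY : ∀ a b, B ![0, a] ![0, b] = 0 := fun a b => by
    rw [hw a 0 b 0, hXX]; funext j; fin_cases j <;> rfl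
  rw [vec_eta u, vec_eta v, hsplit (u 0), hsplit (v 0), hl, hr, hr, hXX, hXY, hYX, hYY]
  simp

/-- An equivariant biadditive map between sums of natural modules vanishes. -/
theorem sum_pairing_eq_zero (hq : ∃ t : K, t ≠ 0 ∧ t ≠ 1) {k l : ℕ}
    (B : (Fin k → Fin 2 → K) → (Fin k → Fin 2 → K) → (Fin l → Fin 2 → K))
    (hl : ∀ u v w, B (u + v) w = B u w + B v w) (hr : ∀ u v w, B u (v + w) = B u v + B u w)
    (heq : ∀ (g : SL(2, K)) u v, B (fun i => (g : Matrix (Fin 2) (Fin 2) K).mulVec (u i))
      (fun i => (g : Matrix (Fin 2) (Fin 2) K).mulVec (v i)) =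
      fun i => (g : Matrix (Fin 2) (Fin 2) K).mulVec (B u v i))
    (u v : Fin k → Fin 2 → K) : B u v = 0 := by
  classical
  have hs : ∀ (g : SL(2, K)) (i : Fin k) (x : Fin 2 → K),
      (fun j => (g : Matrix (Fin 2) (Fin 2) K).mulVec (Pi.single (M := fun _ => Fin 2 → K) i x j)) =
        Pi.single i ((g : Matrix (Fin 2) (Fin 2) K).mulVec x) := fun g i x => by
    funext j
    by_cases h : j = i
    · subst h; simp
    · simp [Pi.single_eq_of_ne h]
  have hone : ∀ i j m (x y : Fin 2 → K), B (Pi.single i x) (Pi.single j y) m = 0 := fun i j m x y =>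
    natural_pairing_eq_zero hq (fun x y => B (Pi.single i x) (Pi.single j y) m)
      (fun a b c => by simp only [Pi.single_add, hl, Pi.add_apply])
      (fun a b c => by simp only [Pi.single_add, hr, Pi.add_apply])
      (fun g a b => by rw [← hs g i a, ← hs g j b, heq]) x y
  let BB : (Fin k → Fin 2 → K) →+ (Fin k → Fin 2 → K) →+ (Fin l → Fin 2 → K) :=
    AddMonoidHom.mk' (fun u => AddMonoidHom.mk' (B u) (hr u))
      fun u v => AddMonoidHom.ext fun w => hl u v w
  have : BB = 0 := by
    refine AddMonoidHom.functions_ext _ _ _ fun i x => ?_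
    refine AddMonoidHom.functions_ext _ _ _ fun j y => ?_
    funext m
    exact hone i j m x y
  exact DFunLike.congr_fun (DFunLike.congr_fun this u) v

variable [Fintype K]

/-- An abelian extension of sums of natural modules has exponent two. -/
theorem double_eq_zero (hq : ∃ t : K, t ≠ 0 ∧ t ≠ 1) {k l : ℕ} {Y : Type*} [AddCommGroup Y]
    (ρ : SL(2, K) →* AddMonoid.End Y) (P : Y →+ (Fin k → Fin 2 → K))
    (hP : Function.Surjective P)
    (hPeq : ∀ g y i, P (ρ g y) i = (g : Matrix (Fin 2) (Fin 2) K).mulVec (P y i))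
    (ι : (Fin l → Fin 2 → K) →+ Y) (hι : Function.Injective ι)
    (hker : ∀ y, P y = 0 ↔ ∃ z, ι z = y)
    (hιeq : ∀ (g : SL(2, K)) z, ρ g (ι z) = ι fun i => (g : Matrix (Fin 2) (Fin 2) K).mulVec (z i))
    (y : Y) : y + y = 0 := by
  classical
  have hmul : ∀ g h y, ρ (g * h) y = ρ g (ρ h y) := fun g h y => by rw [map_mul]; rfl
  have hself : ∀ {n : ℕ} (v : Fin n → Fin 2 → K), v + v = 0 := fun v => by
    funext i j; exact CharTwo.add_self_eq_zero _
  have hιd : ∀ z, ι z + ι z = 0 := fun z => by rw [← map_add, hself, map_zero]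
  choose S hS using hP
  have hdk : ∀ y, ∃ z, ι z = y + y := fun y => (hker _).mp (by rw [map_add, hself])
  choose d hd using hdk
  let σ : (Fin k → Fin 2 → K) → (Fin l → Fin 2 → K) := fun v => d (S v)
  have hσ : ∀ y, ι (σ (P y)) = y + y := by
    intro y
    obtain ⟨z, hz⟩ := (hker (S (P y) - y)).mp (by rw [map_sub, hS, sub_self])
    show ι (d (S (P y))) = _
    rw [hd, show S (P y) = ι z + y by rw [hz, sub_add_cancel],
      show ι z + y + (ι z + y) = (ι z + ι z) + (y + y) by abel, hιd, zero_add]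
  have hσeq : ∀ (g : SL(2, K)) v, σ (fun i => (g : Matrix (Fin 2) (Fin 2) K).mulVec (v i)) =
      fun i => (g : Matrix (Fin 2) (Fin 2) K).mulVec (σ v i) := by
    intro g v
    apply hι
    obtain ⟨y, rfl⟩ : ∃ y, P y = v := ⟨_, hS v⟩
    rw [show (fun i => (g : Matrix (Fin 2) (Fin 2) K).mulVec (P y i)) = P (ρ g y) from
      funext fun i => (hPeq g y i).symm, hσ, ← hιeq, hσ, map_add]
  have h4 : ∀ y : Y, y + y + (y + y) = 0 := fun y => by rw [← hd y, hιd]
  -- the unipotent operators
  let A : K → AddMonoid.End Y := fun a => ρ (upT a) - 1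
  have hA : ∀ a y, A a y = ρ (upT a) y - y := fun a y => rfl
  have hAP : ∀ a y i, P (A a y) i = ![a * P y i 1, 0] := by
    intro a y i
    rw [hA, map_sub, Pi.sub_apply, hPeq, vec_eta (P y i), upT_mulVec]
    funext j; fin_cases j <;> simp
  have hAι : ∀ a z, A a (ι z) = ι fun i => ![a * z i 1, 0] := by
    intro a z
    rw [hA, hιeq, ← map_sub]
    congr 1
    funext i
    rw [Pi.sub_apply, vec_eta (z i), upT_mulVec]
    funext j; fin_cases j <;> simp
  have hAc : ∀ a b y, A a (A b y) = A b (A a y) := by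
    intro a b y
    simp only [hA, map_sub, ← hmul, upT_mul, add_comm a b]
    abel
  have hAA : ∀ a y, A a (A a y) = A a y + A a y := by
    intro a y
    have h2 : -(A a y + A a y) = A a y + A a y := neg_eq_of_add_eq_zero_left (h4 _)
    rw [← h2]
    simp only [hA, map_sub, ← hmul, upT_mul, CharTwo.add_self_eq_zero, upT_zero, map_one]
    show (y : Y) - ρ (upT a) y - (ρ (upT a) y - y) = _
    abel
  suffices hX : ∀ w : Fin k → K, σ (fun i => ![w i, 0]) = 0 by
    have hY : ∀ w : Fin k → K, σ (fun i => ![0, w i]) = 0 := fun w => by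
      have := hσeq (monT 1) (fun i => ![w i, 0])
      rw [hX, show (fun i => ((monT (1 : K) : SL(2, K)) : Matrix (Fin 2) (Fin 2) K).mulVec
        ((fun i => ![w i, 0]) i)) = fun i => ![0, w i] from funext fun i => monT_mulVec _ _] at this
      rw [this]; funext i; simp
    obtain ⟨y1, h1⟩ : ∃ y1, P y1 = fun i => ![P y i 0, 0] := ⟨_, hS _⟩
    have h2 : P (y - y1) = fun i => ![0, P y i 1] := by
      rw [map_sub, h1]; funext i j; fin_cases j <;> simp
    have e1 : y1 + y1 = 0 := by rw [← hσ, h1, hX, map_zero]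
    have e2 : (y - y1) + (y - y1) = 0 := by rw [← hσ, h2, hY, map_zero]
    calc y + y = (y - y1) + (y - y1) + (y1 + y1) := by abel
      _ = 0 := by rw [e1, e2, add_zero]
  obtain ⟨a, ha0, ha1⟩ := hq
  let σX : (Fin k → K) → (Fin l → K) := fun w m => σ (fun i => ![w i, 0]) m 0
  have hσX1 : ∀ (w : Fin k → K) (m : Fin l), σ (fun i => ![w i, 0]) m 1 = 0 := by
    intro w m
    have := congrFun (congrFun (hσeq (upT 1) (fun i => ![w i, 0])) m) 0
    rw [show (fun i => ((upT (1 : K) : SL(2, K)) : Matrix (Fin 2) (Fin 2) K).mulVec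
      ((fun i => ![w i, 0]) i)) = fun i => ![w i, 0] from funext fun i => by
        rw [upT_mulVec, mul_zero, add_zero], vec_eta (σ (fun i => ![w i, 0]) m), upT_mulVec] at this
    simpa using this
  have hσXsmul : ∀ (c : K) (w : Fin k → K), σX (c • w) = c • σX w := by
    intro c w
    funext m
    by_cases hc : c = 0
    · subst hc
      have h0 : σ 0 = 0 := hι (by rw [map_zero, ← map_zero P, hσ, add_zero])
      show σ (fun i => ![(0 : K) * w i, 0]) m 0 = 0 * _
      rw [show (fun i => ![(0 : K) * w i, 0]) = (0 : Fin k → Fin 2 → K) from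
        funext fun i => by funext j; fin_cases j <;> simp, h0]
      simp
    · have := congrFun (congrFun (hσeq (torT c) (fun i => ![w i, 0])) m) 0
      rw [show (fun i => ((torT c : SL(2, K)) : Matrix (Fin 2) (Fin 2) K).mulVec
        ((fun i => ![w i, 0]) i)) = fun i => ![c * w i, 0] from funext fun i => by
          rw [torT_mulVec hc, mul_zero], vec_eta (σ (fun i => ![w i, 0]) m), torT_mulVec hc] at this
      exact this
  have hE : ∀ y, ∃ z, ι z = A a (A 1 y) := fun y => (hker _).mp (by
    funext i; rw [hAP, hAP]; funext j; fin_cases j <;> simp)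
  choose E hE' using hE
  let η : (Fin k → K) → (Fin l → K) := fun w m => E (S fun i => ![0, w i]) m 0
  have key : ∀ (w : Fin k → K), η (a • w) + a • η w = (a + a * a) • σX w := by
    intro w
    set y := S (fun i => ![0, w i]) with hy
    set r := S (fun i => ![0, (a • w) i]) with hr
    have hPy : ∀ i, P y i = ![0, w i] := fun i => congrFun (hS _) i
    have hPr : ∀ i, P r i = ![0, a * w i] := fun i => congrFun (hS _) i
    obtain ⟨z, hz⟩ := (hker (A a y - A 1 r)).mp (by
      funext i; rw [map_sub, Pi.sub_apply, hAP, hAP, hPy, hPr]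
      funext j; fin_cases j <;> simp)
    have hd1 : A 1 r + A 1 r = ι (σ fun i => ![a * w i, 0]) := by
      rw [← hσ (A 1 r)]; congr 2; funext i; rw [hAP, hPr]; simp
    have hd2 : A a y + A a y = ι (σ fun i => ![a * w i, 0]) := by
      rw [← hσ (A a y)]; congr 2; funext i; rw [hAP, hPy]; simp
    have ez : ∀ b, A b (ι z) = A b (A a y) - A b (A 1 r) := fun b => by rw [hz, map_sub]
    have e1 : (fun i => ![1 * z i 1, 0]) = E y + (σ fun i => ![a * w i, 0]) := hι (by
      rw [map_add, ← hAι, ez, hAA, hd1, hAc, ← hE', sub_eq_add_neg,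
        neg_eq_of_add_eq_zero_left (hιd _)])
    have e2 : (σ fun i => ![a * w i, 0]) = E r + fun i => ![a * z i 1, 0] := hι (by
      rw [map_add, ← hAι, ez, hAA, hd2, hE' r, add_sub_cancel])
    funext m
    have f1 : z m 1 = η w m + σX (a • w) m := by
      have := congrFun (congrFun e1 m) 0
      simpa [η, σX] using this
    have f2 : σX (a • w) m = η (a • w) m + a * z m 1 := by
      have := congrFun (congrFun e2 m) 0
      simpa [η, σX, hr, hy] using this
    rw [hσXsmul] at f1 f2
    simp only [Pi.smul_apply, smul_eq_mul, Pi.add_apply] at f1 f2 ⊢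
    have h2 : (2 : K) = 0 := CharTwo.two_eq_zero
    rw [f1] at f2
    linear_combination (-1 : K) * f2 - (a * a * σX w m) * h2
  have hη : ∀ (w : Fin k → K), η (a • w) = a • η w := by
    have hsq : ∀ (w : Fin k → K), η ((a * a) • w) = (a * a) • η w := by
      intro w
      have e1 := key (a • w)
      rw [hσXsmul, smul_comm (a + a * a) a, ← key w, smul_smul, smul_add, smul_smul] at e1
      funext m
      have := congrFun e1 m
      simp only [Pi.add_apply, Pi.smul_apply, smul_eq_mul] at this
      simp only [Pi.smul_apply, smul_eq_mul]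
      linear_combination this
    have hpow : ∀ (j : ℕ) (w : Fin k → K), η (((a * a) ^ j) • w) = ((a * a) ^ j) • η w := by
      intro j
      induction j with
      | zero => intro w; simp
      | succ j ih => intro w; rw [pow_succ', mul_smul, hsq, ih, ← mul_smul]
    obtain ⟨n, -, hn⟩ := FiniteField.card K 2
    have hq2 : (a * a) ^ (2 ^ ((n : ℕ) - 1)) = a := by
      rw [← pow_two, ← pow_mul, ← pow_succ', Nat.sub_add_cancel n.pos, ← hn, FiniteField.pow_card]
    intro w
    have := hpow (2 ^ ((n : ℕ) - 1)) w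
    rwa [hq2] at this
  intro w
  have e := key w
  rw [hη, show a • η w + a • η w = 0 from funext fun m => CharTwo.add_self_eq_zero _, eq_comm,
    smul_eq_zero] at e
  have hne : a + a * a ≠ 0 := by
    rw [show a + a * a = a * (1 + a) by ring]
    exact mul_ne_zero ha0 fun h => ha1 (CharTwo.add_eq_zero.mp h).symm
  funext m
  rw [vec_eta (σ (fun i => ![w i, 0]) m), hσX1,
    show σ (fun i => ![w i, 0]) m 0 = 0 from congrFun (e.resolve_left hne) m]
  funext j; fin_cases j <;> rfl

end CfsgLib.SL2Three
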